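import Groth.Prelude.Def_AnPts
import Mathlib.AlgebraicGeometry.Morphisms.ClosedImmersion
import Mathlib.AlgebraicGeometry.Morphisms.FiniteType
import Mathlib.RingTheory.FiniteType

/-!
# Affine schemes of finite type over `ℂ` are closed in affine space
-/

set_option autoImplicit false
open CategoryTheory AlgebraicGeometry Topology TopologicalSpace Opposite CategoryTheory.Limits

noncomputable section

namespace Groth.Agent.Gaga.H991.AffEmb

theorem exists_closedImmersion (Y : Scheme.{0}) [Y.Over An.SC] [IsAffine Y]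
    [LocallyOfFiniteType (Y ↘ An.SC)] :
    ∃ (m : ℕ) (i : Y ⟶ Spec (CommRingCat.of (MvPolynomial (Fin m) ℂ))), IsClosedImmersion i ∧
      i ≫ Spec.map (CommRingCat.ofHom (algebraMap ℂ (MvPolynomial (Fin m) ℂ))) = Y ↘ An.SC := by
  let φ : CommRingCat.of ℂ ⟶ Γ(Y, ⊤) := (Scheme.ΓSpecIso (CommRingCat.of ℂ)).inv ≫ (Y ↘ An.SC).appTop
  have h1 : (Y ↘ An.SC).appTop.hom.FiniteType :=
    HasRingHomProperty.appTop @LocallyOfFiniteType (Y ↘ An.SC) inferInstance
  have h2 : φ.hom.FiniteType := by
    refine RingHom.FiniteType.comp h1 ?_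
    exact RingHom.FiniteType.of_surjective _
      (ConcreteCategory.bijective_of_isIso (Scheme.ΓSpecIso (CommRingCat.of ℂ)).inv).2
  algebraize [φ.hom]
  obtain ⟨m, g, hg⟩ := Algebra.FiniteType.iff_quotient_mvPolynomial''.mp h2
  refine ⟨m, Y.isoSpec.hom ≫ Spec.map (CommRingCat.ofHom g.toRingHom), ?_, ?_⟩
  · have : IsClosedImmersion (Spec.map (CommRingCat.ofHom g.toRingHom)) :=
      IsClosedImmersion.spec_of_surjective _ hg
    infer_instance
  · rw [Category.assoc, ← Spec.map_comp]
    have h3 : CommRingCat.ofHom (algebraMap ℂ (MvPolynomial (Fin m) ℂ)) ≫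
        CommRingCat.ofHom g.toRingHom = φ := by
      ext a
      exact g.commutes a
    rw [h3, Spec.map_comp, ← Category.assoc, Scheme.isoSpec_hom_naturality, Category.assoc,
      Scheme.isoSpec_Spec_hom, ← Spec.map_comp, Iso.inv_hom_id, Spec.map_id, Category.comp_id]

end Groth.Agent.Gaga.H991.AffEmb
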