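import Groth.Agent.Gaga.H991.RestrPush

/-!
# The analytic direct image along a topological embedding reflects isomorphisms
-/

set_option autoImplicit false
open CategoryTheory AlgebraicGeometry Topology TopologicalSpace Opposite CategoryTheory.Limits

noncomputable section

namespace Groth.Agent.Gaga.H991.AnEmb

open Groth.Agent.Gaga.H991.RestrPush Groth.Agent.Gaga.H277.AnUnit

/-- `i^an_*` reflects isomorphisms if `i^an` is inducing. -/
theorem isIso_of_isIso_push {Z X : Scheme.{0}} [Z.Over An.SC] [X.Over An.SC] (i : Z ⟶ X)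
    [i.IsOver An.SC] (hi : IsInducing (An.Pts.map i)) {A B : An.AnMod Z} (φ : A ⟶ B)
    (h : IsIso ((An.anPushMap i).map φ)) : IsIso φ := by
  refine isIso_of_app φ fun V => ?_
  obtain ⟨W, hW, hWV⟩ := hi.isOpen_iff.1 V.isOpen
  have e : (An.mapF i).obj ⟨W, hW⟩ = V := Opens.ext hWV
  subst e
  exact bijective_app ((An.anPushMap i).map φ) ⟨W, hW⟩

end Groth.Agent.Gaga.H991.AnEmb
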