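import Groth.Agent.Gaga.H277.AnRestrUnit
import Mathlib.CategoryTheory.Preadditive.Biproducts

/-!
# The base change map `(f_* M)^an ⟶ f^an_* (M^an)`: naturality, composition

`bc f` is the natural transformation; `isIso_comp_iff` etc. describe its behaviour for composites.
-/

set_option autoImplicit false
open CategoryTheory AlgebraicGeometry Topology TopologicalSpace Opposite CategoryTheory.Limits

noncomputable section

namespace Groth.Agent.Gaga.H991.BC

open Groth.Agent.Gaga.H277.AnUnit

variable {X Y Z : Scheme.{0}} [X.Over An.SC] [Y.Over An.SC] [Z.Over An.SC] (f : X ⟶ Y) (g : Y ⟶ Z)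
  [f.IsOver An.SC] [g.IsOver An.SC]

/-- Sections of a direct image. -/
lemma app_anPushMap {N N' : An.AnMod X} (φ : N ⟶ N') (V : Opens (An.top Y))
    (x : (pre N).obj (op ((An.mapF f).obj V))) :
    app ((An.anPushMap f).map φ) V x = app φ ((An.mapF f).obj V) x := rfl

/-- Naturality of the base change map. -/
theorem anBaseChange_naturality {M N : X.Modules} (φ : M ⟶ N) :
    (An.analytify Y).map ((An.pushMod f).map φ) ≫ An.anBaseChange f N =
      An.anBaseChange f M ≫ (An.anPushMap f).map ((An.analytify X).map φ) := by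
  refine hom_ext fun U s => ?_
  rw [app_comp, app_comp]
  have h1 : app ((An.analytify Y).map ((An.pushMod f).map φ)) (opn U)
      (an ((An.pushMod f).obj M) U s) = an ((An.pushMod f).obj N) U (((An.pushMod f).map φ).app U s) :=
    an_map _ _ _
  have h2 := anBaseChange_an f M U s
  have h3 := anBaseChange_an f N U (φ.app (f ⁻¹ᵁ U) s)
  have h4 := an_map φ (f ⁻¹ᵁ U) s
  refine (congrArg _ h1).trans ?_
  refine h3.trans ?_
  refine h4.symm.trans ?_
  refine Eq.trans ?_ (congrArg (app ((An.anPushMap f).map ((An.analytify X).map φ)) (opn U)) h2).symm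
  rfl

/-- The base change map as a natural transformation. -/
def bc : An.pushMod f ⋙ An.analytify Y ⟶ An.analytify X ⋙ An.anPushMap f where
  app M := An.anBaseChange f M
  naturality _ _ φ := anBaseChange_naturality f φ

@[simp] lemma bc_app (M : X.Modules) : (bc f).app M = An.anBaseChange f M := rfl

/-- The ring data of the composite, obtained by composing. -/
def compHom : An.holRing Z ⟶ ((An.mapF (f ≫ g)).sheafPushforwardContinuous RingCat.{0} (An.JA Z)
    (An.JA X)).obj (An.holRing X) :=
  letI : (An.mapF g ⋙ An.mapF f).IsContinuous (An.JA Z) (An.JA X) :=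
    Functor.isContinuous_comp (An.mapF g) (An.mapF f) (An.JA Z) (An.JA Y) (An.JA X)
  (show An.holRing Z ⟶ ((An.mapF g ⋙ An.mapF f).sheafPushforwardContinuous RingCat.{0} (An.JA Z)
    (An.JA X)).obj (An.holRing X) from
    An.anMapRingHom g ≫ ((An.mapF g).sheafPushforwardContinuous RingCat.{0} (An.JA Z) (An.JA Y)).map
      (An.anMapRingHom f))

theorem compHom_eq : compHom f g = An.anMapRingHom (f ≫ g) := by
  apply Sheaf.hom_ext
  ext V s
  apply Subtype.ext
  funext x
  rfl

/-- `g^an_* f^an_* ≅ (f ≫ g)^an_*`. -/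
def anPushComp : An.anPushMap f ⋙ An.anPushMap g ≅ An.anPushMap (f ≫ g) :=
  letI : (An.mapF g ⋙ An.mapF f).IsContinuous (An.JA Z) (An.JA X) :=
    Functor.isContinuous_comp (An.mapF g) (An.mapF f) (An.JA Z) (An.JA Y) (An.JA X)
  SheafOfModules.pushforwardComp (φ := An.anMapRingHom g) (ψ := An.anMapRingHom f) ≪≫
    (show SheafOfModules.pushforward (F := An.mapF g ⋙ An.mapF f) (J := An.JA Z) (K := An.JA X)
        (compHom f g) ≅ _ from
      SheafOfModules.pushforwardCongr (compHom_eq f g))

lemma anPushComp_hom_app (N : An.AnMod X) (V : Opens (An.top Z))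
    (x : (pre N).obj (op ((An.mapF f).obj ((An.mapF g).obj V)))) :
    app ((anPushComp f g).hom.app N) V x = x := rfl

/-- `g_* f_* ≅ (f ≫ g)_*`. -/
def pushComp : An.pushMod f ⋙ An.pushMod g ≅ An.pushMod (f ≫ g) :=
  Scheme.Modules.pushforwardComp f g

/-- The base change map of a composite. -/
theorem anBaseChange_comp (M : X.Modules) :
    (An.analytify Z).map ((pushComp f g).hom.app M) ≫ An.anBaseChange (f ≫ g) M =
      An.anBaseChange g ((An.pushMod f).obj M) ≫ (An.anPushMap g).map (An.anBaseChange f M) ≫
        (anPushComp f g).hom.app ((An.analytify X).obj M) := by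
  refine hom_ext fun U s => ?_
  rw [app_comp, app_comp, app_comp]
  have h0 : app ((An.analytify Z).map ((pushComp f g).hom.app M)) (opn U)
      (an ((An.pushMod g).obj ((An.pushMod f).obj M)) U s) = an ((An.pushMod (f ≫ g)).obj M) U s :=
    an_map _ _ _
  have h1 := anBaseChange_an (f ≫ g) M U s
  have h2 := anBaseChange_an g ((An.pushMod f).obj M) U s
  have h3 := anBaseChange_an f M (g ⁻¹ᵁ U) s
  refine (congrArg _ h0).trans ?_
  refine h1.trans ?_
  refine Eq.trans ?_ (congrArg (fun t => app ((anPushComp f g).hom.app ((An.analytify X).obj M))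
    (opn U) (app ((An.anPushMap g).map (An.anBaseChange f M)) (opn U) t)) h2).symm
  refine Eq.trans ?_ (congrArg (fun t => app ((anPushComp f g).hom.app ((An.analytify X).obj M))
    (opn U) t) h3).symm
  rfl

end Groth.Agent.Gaga.H991.BC
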