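import Groth.Agent.Gaga.H991.Comp
import Groth.Agent.Gaga.H364.TwEmb
import Groth.Agent.Ega3B.CohTensor
import Groth.Agent.PerfA.CohSerre
import Groth.Agent.FormalB.FormalFG

/-!
# Base change for coherent modules on `P^n_R`, from large twists
-/

set_option autoImplicit false
open CategoryTheory AlgebraicGeometry Topology TopologicalSpace Opposite CategoryTheory.Limits

noncomputable section

namespace Groth.Agent.Gaga.H991.CohProj

open Groth.Agent.Gaga.H991.Comp CohB1

attribute [local instance] Abelian.hasFiniteBiproducts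

/-- If base change holds for large twists of coherent modules then it holds for coherent modules. -/
theorem isIso_projSpace (n : ℕ) (R : Type) [CommRing R]
    [(ProjSpace n R).Over An.SC] [(Spec (CommRingCat.of R)).Over An.SC]
    [(ProjSpace.toSpec n R).IsOver An.SC]
    (h1 : PreservesFiniteLimits (An.analytify (ProjSpace n R)))
    (h2 : PreservesFiniteLimits (An.analytify (Spec (CommRingCat.of R))))
    (hD : ∀ M : (ProjSpace n R).Modules, Coh.IsCoh M → ∃ k₀ : ℕ, ∀ k : ℤ, (k₀ : ℤ) ≤ k →
      IsIso (An.anBaseChange (ProjSpace.toSpec n R)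
        (tensorMod M (Twist.twistProjSpace n R k))))
    (N : (ProjSpace n R).Modules) (hN : Coh.IsCoh N) :
    IsIso (An.anBaseChange (ProjSpace.toSpec n R) N) := by
  refine isIso_of_embedding (ProjSpace.toSpec n R) Coh.IsCoh ?_ ?_ N hN
  · intro A B g _ hA hB
    exact Groth.Agent.PerfA.CohSerre.isCoh_cokernel g hA.1 hB
  · intro A hA
    obtain ⟨k₀, hk⟩ := hD A hA
    obtain ⟨g, hg⟩ := Groth.Agent.Gaga.H364.TwEmb.exists_mono A k₀
    refine ⟨_, g, hg, ?_, ?_⟩
    · exact Groth.Agent.FormalB.FormalFG.isCoh_biproduct _ fun _ =>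
        Groth.Agent.Ega3B.CohTensor.isCoh_tensor hA
          (Groth.Agent.Ega3B.ProjTwist.isInvertible_twistProjSpace n R _)
    · exact isIso_biproduct (ProjSpace.toSpec n R) _ fun _ => hk k₀ le_rfl

end Groth.Agent.Gaga.H991.CohProj
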