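import Mathlib.CategoryTheory.Abelian.DiagramLemmas.Four
import Mathlib.Algebra.Homology.ShortComplex.ExactFunctor
import Mathlib.CategoryTheory.Preadditive.AdditiveFunctor

/-!
# Natural transformations of left exact functors: dévissage lemmas
-/

set_option autoImplicit false
open CategoryTheory CategoryTheory.Limits

universe v₁ v₂ u₁ u₂

namespace Groth.Agent.Gaga.H991.NatAb

variable {C : Type u₁} {D : Type u₂} [Category.{v₁} C] [Category.{v₂} D] [Abelian C] [Abelian D]
  {F G : C ⥤ D} [F.Additive] [G.Additive] (α : F ⟶ G)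

omit [G.Additive] [F.Additive] in
/-- If `A ⟶ B` is mono, `F` is left exact and `α_B` is mono, then `α_A` is mono. -/
theorem mono_app_of_mono [PreservesFiniteLimits F] {A B : C} (k : A ⟶ B) [Mono k]
    (h : Mono (α.app B)) : Mono (α.app A) := by
  have h1 : Mono (F.map k ≫ α.app B) := mono_comp _ _
  rw [α.naturality] at h1
  exact @mono_of_mono _ _ _ _ _ _ _ h1

/-- Left exact version of the five lemma: kernel term. -/
theorem isIso_app_of_exact [PreservesFiniteLimits F] [PreservesFiniteLimits G] (S : ShortComplex C)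
    (hS : S.Exact) (hf : Mono S.f) (h₂ : IsIso (α.app S.X₂)) (h₃ : Mono (α.app S.X₃)) :
    IsIso (α.app S.X₁) := by
  have hm : Mono (α.app S.X₁) := mono_app_of_mono α S.f inferInstance
  have hF : (S.map F).Exact := hS.map_of_mono_of_preservesKernel F inferInstance inferInstance
  have hG : Mono (S.map G).f := inferInstanceAs (Mono (G.map S.f))
  have he : Epi (α.app S.X₁) := ShortComplex.epi_of_mono_of_epi_of_mono (S.mapNatTrans α) hF hG
    (inferInstanceAs (Epi (α.app S.X₂))) h₃
  exact isIso_of_mono_of_epi _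

/-- Middle term, when `F(B) ⟶ F(Q)` is epi. -/
theorem isIso_app_of_epi [PreservesFiniteLimits F] [PreservesFiniteLimits G] (S : ShortComplex C)
    (hS : S.Exact) (hf : Mono S.f) (hg : Epi (F.map S.g)) (h₁ : IsIso (α.app S.X₁))
    (h₃ : IsIso (α.app S.X₃)) : IsIso (α.app S.X₂) := by
  have hF : (S.map F).Exact := hS.map_of_mono_of_preservesKernel F inferInstance inferInstance
  have hG' : (S.map G).Exact := hS.map_of_mono_of_preservesKernel G inferInstance inferInstance
  have hG : Mono (S.map G).f := inferInstanceAs (Mono (G.map S.f))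
  have hm : Mono (α.app S.X₂) := ShortComplex.mono_of_mono_of_mono_of_mono (S.mapNatTrans α) hF hG
    (inferInstanceAs (Mono (α.app S.X₁))) (inferInstanceAs (Mono (α.app S.X₃)))
  have he : Epi (α.app S.X₂) := ShortComplex.epi_of_epi_of_epi_of_epi (S.mapNatTrans α) hG' hg
    (inferInstanceAs (Epi (α.app S.X₁))) (inferInstanceAs (Epi (α.app S.X₃)))
  exact isIso_of_mono_of_epi _

omit [Abelian C] [Abelian D] [F.Additive] [G.Additive] in
/-- Invariance under isomorphism. -/
theorem isIso_app_of_iso {M N : C} (e : M ≅ N) (h : IsIso (α.app M)) : IsIso (α.app N) := by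
  have h1 : α.app N = F.map e.inv ≫ α.app M ≫ G.map e.hom := by
    rw [← α.naturality e.hom, ← Category.assoc, ← F.map_comp, e.inv_hom_id, F.map_id,
      Category.id_comp]
  rw [h1]
  infer_instance

/-- Finite direct sums. -/
theorem isIso_app_biproduct {J : Type} [Finite J] (N : J → C) [HasBiproduct N]
    (h : ∀ a, IsIso (α.app (N a))) : IsIso (α.app (⨁ N)) := by
  have := Fintype.ofFinite J
  classical
  have hid : (𝟙 (⨁ N) : ⨁ N ⟶ ⨁ N) = ∑ a, biproduct.π N a ≫ biproduct.ι N a := by
    rw [biproduct.total]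
  refine ⟨∑ a, G.map (biproduct.π N a) ≫ inv (α.app (N a)) ≫ F.map (biproduct.ι N a), ?_, ?_⟩
  · rw [Preadditive.comp_sum]
    have : ∀ a, α.app (⨁ N) ≫ G.map (biproduct.π N a) ≫ inv (α.app (N a)) ≫
        F.map (biproduct.ι N a) = F.map (biproduct.π N a ≫ biproduct.ι N a) := by
      intro a
      rw [← Category.assoc, ← α.naturality, Category.assoc, IsIso.hom_inv_id_assoc, F.map_comp]
    rw [Finset.sum_congr rfl fun a _ => this a, ← F.map_sum, ← hid, F.map_id]
  · rw [Preadditive.sum_comp]
    have : ∀ a, (G.map (biproduct.π N a) ≫ inv (α.app (N a)) ≫ F.map (biproduct.ι N a)) ≫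
        α.app (⨁ N) = G.map (biproduct.π N a ≫ biproduct.ι N a) := by
      intro a
      rw [Category.assoc, Category.assoc, α.naturality, IsIso.inv_hom_id_assoc, G.map_comp]
    rw [Finset.sum_congr rfl fun a _ => this a, ← G.map_sum, ← hid, G.map_id]

/-- **Embedding principle.** If every object of a class (closed under cokernels of monomorphisms)
embeds into an object of the class at which `α` is an isomorphism, then `α` is an isomorphism on the
class. -/
theorem isIso_app_of_embedding [PreservesFiniteLimits F] [PreservesFiniteLimits G] (P : C → Prop)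
    (hcok : ∀ (M N : C) (g : M ⟶ N), Mono g → P M → P N → P (cokernel g))
    (hemb : ∀ M, P M → ∃ (N : C) (g : M ⟶ N), Mono g ∧ P N ∧ IsIso (α.app N)) (M : C) (hM : P M) :
    IsIso (α.app M) := by
  have hmono : ∀ M, P M → Mono (α.app M) := by
    intro M hM
    obtain ⟨N, g, hg, -, hN⟩ := hemb M hM
    exact mono_app_of_mono α g inferInstance
  obtain ⟨N, g, hg, hPN, hN⟩ := hemb M hM
  exact isIso_app_of_exact α (ShortComplex.mk g (cokernel.π g) (cokernel.condition g))
    (ShortComplex.exact_of_g_is_cokernel _ (cokernelIsCokernel g)) hg hN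
    (hmono _ (hcok M N g hg hM hPN))

end Groth.Agent.Gaga.H991.NatAb
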