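import Groth.Agent.Gaga.H991.BC
import Groth.Agent.CohqA.PushRes

/-!
# Restriction to opens of the target and the analytic direct image

For a cartesian square with `j : T ⟶ S` and `g : X' ⟶ X` open immersions, `f : X ⟶ S`,
`f' : X' ⟶ T`: the comparison map `(f^an_* N)|_T ⟶ f'^an_* (N|_{X'})` (an isomorphism), and the
compatibility of the base change map of `f` with that of `f'`.
-/

set_option autoImplicit false
open CategoryTheory AlgebraicGeometry Topology TopologicalSpace Opposite CategoryTheory.Limits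

noncomputable section

namespace Groth.Agent.Gaga.H991.RestrPush

open Groth.Agent.Gaga.H277.AnUnit Groth.Agent.Gaga.H277.OpenHol Groth.Agent.Gaga.H277.AnRestr
  Groth.Agent.Gaga.H277.AnRestrUnit Groth.Agent.Gaga.H991.BC

variable {X S X' T : Scheme.{0}} [X.Over An.SC] [S.Over An.SC] [X'.Over An.SC] [T.Over An.SC]
  {f : X ⟶ S} {j : T ⟶ S} {g : X' ⟶ X} {f' : X' ⟶ T} [f.IsOver An.SC] [j.IsOver An.SC]
  [g.IsOver An.SC] [f'.IsOver An.SC] [IsOpenImmersion j] [IsOpenImmersion g]
  (sq : IsPullback f' g j f)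

include sq

omit [IsOpenImmersion j] [IsOpenImmersion g] in
lemma map_comm (u : An.Pts X') :
    An.Pts.map f (An.Pts.map g u) = An.Pts.map j (An.Pts.map f' u) := by
  apply Subtype.ext
  change (u.1 ≫ g) ≫ f = (u.1 ≫ f') ≫ j
  rw [Category.assoc, Category.assoc, sq.w]

omit [IsOpenImmersion j] [IsOpenImmersion g] [f'.IsOver An.SC] in
lemma exists_lift (x : An.Pts X) (t : An.Pts T) (h : An.Pts.map j t = An.Pts.map f x)
    [f'.IsOver An.SC] :
    ∃ u : An.Pts X', An.Pts.map g u = x ∧ An.Pts.map f' u = t := by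
  have h' : t.1 ≫ j = x.1 ≫ f := congrArg Subtype.val h
  refine ⟨⟨sq.lift t.1 x.1 h', ?_⟩, ?_, ?_⟩
  · rw [← comp_over g, ← Category.assoc, sq.lift_snd]
    exact x.2
  · exact Subtype.ext (sq.lift_snd _ _ _)
  · exact Subtype.ext (sq.lift_fst _ _ _)

theorem anImg_eq (W : Opens (An.top T)) :
    (imF g).obj ((An.mapF f').obj W) = (An.mapF f).obj ((imF j).obj W) := by
  ext x
  constructor
  · rintro ⟨u, hu, rfl⟩
    exact ⟨An.Pts.map f' u, hu, (map_comm sq u).symm⟩
  · rintro ⟨t, ht, h⟩
    obtain ⟨u, hu1, hu2⟩ := exists_lift sq x t h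
    exact ⟨u, by
      change An.Pts.map f' u ∈ W
      rw [hu2]; exact ht, hu1⟩

/-- The inclusion of opens. -/
abbrev ι (W : Opens (An.top T)) :
    (imF g).obj ((An.mapF f').obj W) ⟶ (An.mapF f).obj ((imF j).obj W) :=
  homOfLE (anImg_eq sq W).le

theorem scalar_eq (W : Opens (An.top T)) (r : (An.holPresheaf T).obj (op W)) :
    (An.holPresheaf X).map (ι sq W).op (An.anMapApp f ((imF j).obj W) (holHom j W r)) =
      holHom g ((An.mapF f').obj W) (An.anMapApp f' W r) := by
  apply Subtype.ext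
  funext x
  obtain ⟨x, u, hu, rfl⟩ := x
  have h1 : pre g ⟨An.Pts.map g u, u, hu, rfl⟩ = ⟨u, hu⟩ :=
    pre_map g (V := (An.mapF f').obj W) ⟨u, hu⟩
  have h2 : ((holHom g ((An.mapF f').obj W) (An.anMapApp f' W r)).1 ⟨An.Pts.map g u, u, hu, rfl⟩ : ℂ) =
      r.1 ⟨An.Pts.map f' u, hu⟩ := by
    rw [holHom_apply, h1]
    rfl
  refine Eq.trans ?_ h2.symm
  change r.1 (pre j ⟨An.Pts.map f (An.Pts.map g u), _⟩) = _
  refine congrArg r.1 (Subtype.ext ((isOpenEmbedding j).injective ?_))
  refine (map_pre j _).trans ?_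
  exact map_comm sq u

/-- The comparison map on presheaves. -/
def homPre (N : An.AnMod X) :
    pre ((anRestrict j).obj ((An.anPushMap f).obj N)) ⟶
      pre ((An.anPushMap f').obj ((anRestrict g).obj N)) where
  app W := (pre N).map (ι sq W.unop).op
  naturality W W' i := by
    change (pre N).map ((An.mapF f).map ((imF j).map i.unop)).op ≫ (pre N).map (ι sq W'.unop).op =
      (pre N).map (ι sq W.unop).op ≫ (pre N).map ((imF g).map ((An.mapF f').map i.unop)).op
    rw [← Functor.map_comp, ← Functor.map_comp]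
    congr 1

theorem hom_smul (N : An.AnMod X) (W : Opens (An.top T)) (r : (An.holPresheaf T).obj (op W))
    (m : (pre N).obj (op ((An.mapF f).obj ((imF j).obj W)))) :
    (pre N).map (ι sq W).op (r • (show (pre ((anRestrict j).obj ((An.anPushMap f).obj N))).obj (op W)
      from m) : (pre ((anRestrict j).obj ((An.anPushMap f).obj N))).obj (op W)) =
    (r • (show (pre ((An.anPushMap f').obj ((anRestrict g).obj N))).obj (op W) from
      (pre N).map (ι sq W).op m) :
        (pre ((An.anPushMap f').obj ((anRestrict g).obj N))).obj (op W)) := by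
  have h1 : (r • (show (pre ((anRestrict j).obj ((An.anPushMap f).obj N))).obj (op W)
      from m) : (pre ((anRestrict j).obj ((An.anPushMap f).obj N))).obj (op W)) =
      ((An.anMapApp f ((imF j).obj W) (holHom j W r)) • m :) := rfl
  have h2 : (r • (show (pre ((An.anPushMap f').obj ((anRestrict g).obj N))).obj (op W) from
      (pre N).map (ι sq W).op m) :
        (pre ((An.anPushMap f').obj ((anRestrict g).obj N))).obj (op W)) =
      ((holHom g ((An.mapF f').obj W) (An.anMapApp f' W r)) • (pre N).map (ι sq W).op m :) := rfl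
  rw [h1, h2, ← scalar_eq sq]
  exact map_smul N (ι sq W) _ m

/-- The comparison map `(f^an_* N)|_T ⟶ f'^an_* (N|_{X'})`. -/
def κ (N : An.AnMod X) : (anRestrict j).obj ((An.anPushMap f).obj N) ⟶
    (An.anPushMap f').obj ((anRestrict g).obj N) where
  val := PresheafOfModules.homMk (homPre sq N) (fun W r m => hom_smul sq N W.unop r m)

theorem κ_app (N : An.AnMod X) (W : Opens (An.top T))
    (x : (pre N).obj (op ((An.mapF f).obj ((imF j).obj W)))) :
    app (κ sq N) W x = (pre N).map (ι sq W).op x := rfl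

omit sq in
/-- A morphism of `hol`-modules which is bijective on sections is an isomorphism. -/
theorem isIso_of_app {N N' : An.AnMod X} (φ : N ⟶ N')
    (h : ∀ V : Opens (An.top X), Function.Bijective (app φ V)) : IsIso φ := by
  have h1 : IsIso ((SheafOfModules.forget _ ⋙ PresheafOfModules.toPresheaf _).map φ) := by
    rw [NatTrans.isIso_iff_isIso_app]
    intro V
    exact (ConcreteCategory.isIso_iff_bijective _).mpr (h V.unop)
  exact isIso_of_reflects_iso φ (SheafOfModules.forget _ ⋙ PresheafOfModules.toPresheaf _)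

omit sq in
/-- An isomorphism of `hol`-modules is bijective on sections. -/
theorem bijective_app {N N' : An.AnMod X} (φ : N ⟶ N') [IsIso φ] (V : Opens (An.top X)) :
    Function.Bijective (app φ V) := by
  constructor
  · intro a b hab
    have h1 : app (φ ≫ inv φ) V a = app (φ ≫ inv φ) V b := by
      rw [app_comp, app_comp, hab]
    rwa [IsIso.hom_inv_id, app_id, app_id] at h1
  · intro b
    refine ⟨app (inv φ) V b, ?_⟩
    rw [← app_comp, IsIso.inv_hom_id, app_id]

instance isIso_κ (N : An.AnMod X) : IsIso (κ sq N) := by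
  refine isIso_of_app _ fun W => ?_
  have h1 : IsIso ((pre N).map (ι sq W).op) := by
    have : IsIso (ι sq W).op := ⟨(homOfLE (anImg_eq sq W).ge).op, Subsingleton.elim _ _,
      Subsingleton.elim _ _⟩
    exact Functor.map_isIso _ _
  exact (ConcreteCategory.isIso_iff_bijective _).mp h1

/-- `(f_* M)|_T ≅ f'_* (M|_{X'})`. -/
def e (M : X.Modules) : (Scheme.Modules.restrictFunctor j).obj ((An.pushMod f).obj M) ≅
    (An.pushMod f').obj ((Scheme.Modules.restrictFunctor g).obj M) :=
  (Groth.Agent.CohqA.PushRes.iso sq).app M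

theorem e_app (M : X.Modules) (W : T.Opens) (s : Γ(M, f ⁻¹ᵁ (j ''ᵁ W))) :
    (e sq M).hom.app W s =
      M.presheaf.map (homOfLE (Groth.Agent.CohqA.PushRes.img_eq sq W).le).op s := rfl

omit sq in
theorem anRestrict_hom_ext {M : S.Modules} {N : An.AnMod T}
    {φ ψ : (anRestrict j).obj ((An.analytify S).obj M) ⟶ N}
    (h : ∀ (U : S.Opens) (s : Γ(M, U)),
      app φ (opn (j ⁻¹ᵁ U)) ((pre ((An.analytify S).obj M)).map (imPre j (opn U)).op (an M U s)) =
      app ψ (opn (j ⁻¹ᵁ U)) ((pre ((An.analytify S).obj M)).map (imPre j (opn U)).op (an M U s))) :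
    φ = ψ := by
  apply ((anRestrictAdj j).homEquiv _ _).injective
  refine hom_ext fun U s => ?_
  rw [Adjunction.homEquiv_unit, Adjunction.homEquiv_unit]
  exact h U s

omit [IsOpenImmersion j] [IsOpenImmersion g] in
theorem preimage_eq (U : S.Opens) : f' ⁻¹ᵁ (j ⁻¹ᵁ U) = g ⁻¹ᵁ (f ⁻¹ᵁ U) := by
  rw [← Scheme.Hom.comp_preimage, ← Scheme.Hom.comp_preimage, sq.w]

/-- The left hand side of the compatibility on unit sections. -/
theorem lhs_an (M : X.Modules) (U : S.Opens) (s : Γ(M, f ⁻¹ᵁ U)) :
    app ((restrIso j).hom.app ((An.pushMod f).obj M) ≫ (An.analytify T).map (e sq M).hom ≫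
        An.anBaseChange f' ((Scheme.Modules.restrictFunctor g).obj M)) (opn (j ⁻¹ᵁ U))
      ((pre ((An.analytify S).obj ((An.pushMod f).obj M))).map (imPre j (opn U)).op
        (an ((An.pushMod f).obj M) U s)) =
    an ((Scheme.Modules.restrictFunctor g).obj M) (f' ⁻¹ᵁ (j ⁻¹ᵁ U))
      (M.presheaf.map (homOfLE (show g ''ᵁ (f' ⁻¹ᵁ (j ⁻¹ᵁ U)) ≤ f ⁻¹ᵁ U by
        rw [preimage_eq sq]; exact g.image_preimage_le _)).op s) := by
  rw [app_comp, app_comp]
  have h1 := restrIso_an j ((An.pushMod f).obj M) U s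
  refine (congrArg (fun t => app (An.anBaseChange f' ((Scheme.Modules.restrictFunctor g).obj M))
    (opn (j ⁻¹ᵁ U)) (app ((An.analytify T).map (e sq M).hom) (opn (j ⁻¹ᵁ U)) t)) h1).trans ?_
  have h2 := an_map (e sq M).hom (j ⁻¹ᵁ U)
    (((An.pushMod f).obj M).presheaf.map (homOfLE (j.image_preimage_le U)).op s)
  refine (congrArg (fun t => app (An.anBaseChange f' ((Scheme.Modules.restrictFunctor g).obj M))
    (opn (j ⁻¹ᵁ U)) t) h2).trans ?_
  refine (anBaseChange_an f' _ _ _).trans ?_
  congr 1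
  rw [e_app]
  change (M.presheaf.map _ ≫ M.presheaf.map _) s = _
  rw [← Functor.map_comp]
  rfl

/-- The right hand side of the compatibility on unit sections. -/
theorem rhs_an (M : X.Modules) (U : S.Opens) (s : Γ(M, f ⁻¹ᵁ U)) :
    app ((anRestrict j).map (An.anBaseChange f M) ≫ κ sq ((An.analytify X).obj M) ≫
        (An.anPushMap f').map ((restrIso g).hom.app M)) (opn (j ⁻¹ᵁ U))
      ((pre ((An.analytify S).obj ((An.pushMod f).obj M))).map (imPre j (opn U)).op
        (an ((An.pushMod f).obj M) U s)) =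
    an ((Scheme.Modules.restrictFunctor g).obj M) (f' ⁻¹ᵁ (j ⁻¹ᵁ U))
      (M.presheaf.map (homOfLE (show g ''ᵁ (f' ⁻¹ᵁ (j ⁻¹ᵁ U)) ≤ f ⁻¹ᵁ U by
        rw [preimage_eq sq]; exact g.image_preimage_le _)).op s) := by
  have hle : f' ⁻¹ᵁ (j ⁻¹ᵁ U) ≤ g ⁻¹ᵁ (f ⁻¹ᵁ U) := (preimage_eq sq U).le
  have h1 : app (An.anBaseChange f M) ((imF j).obj (opn (j ⁻¹ᵁ U)))
      ((pre ((An.analytify S).obj ((An.pushMod f).obj M))).map (imPre j (opn U)).op
        (an ((An.pushMod f).obj M) U s)) =
      (pre ((An.anPushMap f).obj ((An.analytify X).obj M))).map (imPre j (opn U)).op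
        (an M (f ⁻¹ᵁ U) s :
          (pre ((An.analytify X).obj M)).obj (op ((An.mapF f).obj (opn U)))) := by
    refine (app_res _ _ _).trans ?_
    congr 1
    exact anBaseChange_an f M U s
  have h2 := restrIso_an g M (f ⁻¹ᵁ U) s
  have h3 := congrArg (fun t => (pre ((An.analytify X').obj (M.restrict g))).map
    ((An.baseF X').map (homOfLE hle)).op t) h2
  dsimp only at h3
  rw [an_res] at h3
  rw [app_comp, app_comp]
  refine (congrArg (fun t => app ((An.anPushMap f').map ((restrIso g).hom.app M)) (opn (j ⁻¹ᵁ U))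
    (app (κ sq ((An.analytify X).obj M)) (opn (j ⁻¹ᵁ U)) t)) h1).trans ?_
  refine Eq.trans ?_ (h3.trans ?_)
  · refine Eq.trans ?_ (app_res ((restrIso g).hom.app M) ((An.baseF X').map (homOfLE hle)) _)
    change app ((restrIso g).hom.app M) _ _ = app ((restrIso g).hom.app M) _ _
    congr 1
    change (pre ((An.analytify X).obj M)).map _ ((pre ((An.analytify X).obj M)).map _ _) =
      (pre ((An.analytify X).obj M)).map _ ((pre ((An.analytify X).obj M)).map _ _)
    rw [← ConcreteCategory.comp_apply, ← ConcreteCategory.comp_apply, ← Functor.map_comp,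
      ← Functor.map_comp]
    rfl
  · congr 1
    change (M.presheaf.map _ ≫ M.presheaf.map _) s = _
    rw [← Functor.map_comp]
    rfl

end Groth.Agent.Gaga.H991.RestrPush
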