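import Groth.Agent.Gaga.H991.BC
import Groth.Agent.Gaga.H991.NatAb
import Groth.Agent.Gaga.H991.RestrPush

/-!
# When is the base change map an isomorphism: formal properties
-/

set_option autoImplicit false
open CategoryTheory AlgebraicGeometry Topology TopologicalSpace Opposite CategoryTheory.Limits

noncomputable section

namespace Groth.Agent.Gaga.H991.Comp

open Groth.Agent.Gaga.H277.AnUnit Groth.Agent.Gaga.H991.BC Groth.Agent.Gaga.H991.NatAb

variable {X Y Z : Scheme.{0}} [X.Over An.SC] [Y.Over An.SC] [Z.Over An.SC] (f : X ⟶ Y) (g : Y ⟶ Z)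
  [f.IsOver An.SC] [g.IsOver An.SC]

theorem isIso_of_iso {M N : X.Modules} (e : M ≅ N) (h : IsIso (An.anBaseChange f M)) :
    IsIso (An.anBaseChange f N) :=
  isIso_app_of_iso (bc f) e h

/-- If the base change map of `f` at `M` is an isomorphism: the base change map of `f ≫ g` at `M` is an
isomorphism iff the one of `g` at `f_* M` is. -/
theorem comp_iff (M : X.Modules) (h : IsIso (An.anBaseChange f M)) :
    IsIso (An.anBaseChange (f ≫ g) M) ↔ IsIso (An.anBaseChange g ((An.pushMod f).obj M)) := by
  have hc := anBaseChange_comp f g M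
  have i1 : IsIso ((An.analytify Z).map ((pushComp f g).hom.app M)) := inferInstance
  have i2 : IsIso ((An.anPushMap g).map (An.anBaseChange f M) ≫
        (anPushComp f g).hom.app ((An.analytify X).obj M)) := inferInstance
  constructor
  · intro h1
    have h2 : IsIso (An.anBaseChange g ((An.pushMod f).obj M) ≫
        (An.anPushMap g).map (An.anBaseChange f M) ≫
        (anPushComp f g).hom.app ((An.analytify X).obj M)) := by
      rw [← hc]; infer_instance
    exact @IsIso.of_isIso_comp_right _ _ _ _ _ _ _ i2 h2
  · intro h1
    have h2 : IsIso ((An.analytify Z).map ((pushComp f g).hom.app M) ≫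
        An.anBaseChange (f ≫ g) M) := by
      rw [hc]; infer_instance
    exact @IsIso.of_isIso_comp_left _ _ _ _ _ _ _ i1 h2

/-- If the base change map of `g` at `f_* M` is an isomorphism: the one of `f ≫ g` at `M` is an
isomorphism iff `g^an_*` of the one of `f` at `M` is. -/
theorem comp_iff_map (M : X.Modules) (h : IsIso (An.anBaseChange g ((An.pushMod f).obj M))) :
    IsIso (An.anBaseChange (f ≫ g) M) ↔ IsIso ((An.anPushMap g).map (An.anBaseChange f M)) := by
  have hc := anBaseChange_comp f g M
  have i1 : IsIso ((An.analytify Z).map ((pushComp f g).hom.app M)) := inferInstance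
  have i2 : IsIso ((anPushComp f g).hom.app ((An.analytify X).obj M)) := inferInstance
  constructor
  · intro h1
    have h2 : IsIso (An.anBaseChange g ((An.pushMod f).obj M) ≫
        (An.anPushMap g).map (An.anBaseChange f M) ≫
        (anPushComp f g).hom.app ((An.analytify X).obj M)) := by
      rw [← hc]; infer_instance
    have h3 : IsIso ((An.anPushMap g).map (An.anBaseChange f M) ≫
        (anPushComp f g).hom.app ((An.analytify X).obj M)) :=
      @IsIso.of_isIso_comp_left _ _ _ _ _ _ _ h h2
    exact @IsIso.of_isIso_comp_right _ _ _ _ _ _ _ i2 h3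
  · intro h1
    have h2 : IsIso ((An.analytify Z).map ((pushComp f g).hom.app M) ≫
        An.anBaseChange (f ≫ g) M) := by
      rw [hc]; infer_instance
    exact @IsIso.of_isIso_comp_left _ _ _ _ _ _ _ i1 h2

/-- Equal morphisms. -/
theorem congr_iff {f f' : X ⟶ Y} (h : f = f') (i : f.IsOver An.SC) (i' : f'.IsOver An.SC)
    (M : X.Modules) : IsIso (@An.anBaseChange _ _ _ _ f i M) ↔
      IsIso (@An.anBaseChange _ _ _ _ f' i' M) := by
  subst h
  rfl

instance anPushMap_preservesFiniteLimits : PreservesFiniteLimits (An.anPushMap f) :=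
  have : PreservesLimitsOfSize.{0, 0} (An.anPushMap f) :=
    (SheafOfModules.pullbackPushforwardAdjunction (F := An.mapF f) (J := An.JA Y) (K := An.JA X)
      (An.anMapRingHom f)).rightAdjoint_preservesLimits
  PreservesLimitsOfSize.preservesFiniteLimits _

instance pushMod_preservesFiniteLimits : PreservesFiniteLimits (An.pushMod f) :=
  have : PreservesLimitsOfSize.{0, 0} (Scheme.Modules.pushforward f) :=
    (Scheme.Modules.pullbackPushforwardAdjunction f).rightAdjoint_preservesLimits
  PreservesLimitsOfSize.preservesFiniteLimits (Scheme.Modules.pushforward f)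

instance analytify_preservesFiniteColimits : PreservesFiniteColimits (An.analytify X) :=
  have : PreservesColimitsOfSize.{0, 0} (An.analytify X) :=
    (An.analytifyAdj X).leftAdjoint_preservesColimits
  PreservesColimitsOfSize.preservesFiniteColimits _

instance anPushMap_additive : (An.anPushMap f).Additive where
  map_add := rfl

instance pushMod_additive : (An.pushMod f).Additive where
  map_add := rfl

instance anPush_additive : (An.anPush X).Additive where
  map_add := rfl

instance analytify_additive : (An.analytify X).Additive :=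
  (An.analytifyAdj X).left_adjoint_additive

section

variable [hY : PreservesFiniteLimits (An.analytify Y)] [hX : PreservesFiniteLimits (An.analytify X)]

instance : PreservesFiniteLimits (An.pushMod f ⋙ An.analytify Y) :=
  comp_preservesFiniteLimits _ _

instance : PreservesFiniteLimits (An.analytify X ⋙ An.anPushMap f) :=
  comp_preservesFiniteLimits _ _

include hY in
theorem mono_of_mono {A B : X.Modules} (k : A ⟶ B) [Mono k] (h : Mono (An.anBaseChange f B)) :
    Mono (An.anBaseChange f A) :=
  mono_app_of_mono (bc f) k h

include hX hY in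
/-- Extensions `0 → A → B → Q → 0` with `f_* B ⟶ f_* Q` epi. -/
theorem isIso_of_extension (S : ShortComplex X.Modules) (hS : S.Exact) (hf : Mono S.f)
    (hg : Epi ((An.pushMod f).map S.g)) (h₁ : IsIso (An.anBaseChange f S.X₁))
    (h₃ : IsIso (An.anBaseChange f S.X₃)) : IsIso (An.anBaseChange f S.X₂) :=
  isIso_app_of_epi (bc f) S hS hf
    (inferInstanceAs (Epi ((An.analytify Y).map ((An.pushMod f).map S.g)))) h₁ h₃

include hX hY in
/-- Extensions, in terms of the maps. -/
theorem isIso_of_extension' {A B Q : X.Modules} (a : A ⟶ B) (b : B ⟶ Q) (w : a ≫ b = 0)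
    (hS : (ShortComplex.mk a b w).Exact) (ha : Mono a)
    (hb : Epi ((An.pushMod f).map b)) (h₁ : IsIso (An.anBaseChange f A))
    (h₃ : IsIso (An.anBaseChange f Q)) : IsIso (An.anBaseChange f B) :=
  isIso_of_extension f (ShortComplex.mk a b w) hS ha hb h₁ h₃

include hX hY in
/-- **Embedding principle** for the base change map. -/
theorem isIso_of_embedding (P : X.Modules → Prop)
    (hcok : ∀ (M N : X.Modules) (g : M ⟶ N), Mono g → P M → P N → P (cokernel g))
    (hemb : ∀ M, P M → ∃ (N : X.Modules) (g : M ⟶ N), Mono g ∧ P N ∧ IsIso (An.anBaseChange f N))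
    (M : X.Modules) (hM : P M) : IsIso (An.anBaseChange f M) :=
  isIso_app_of_embedding (bc f) P hcok hemb M hM

end

/-- Finite direct sums. -/
theorem isIso_biproduct {J : Type} [Finite J] (N : J → X.Modules) [HasBiproduct N]
    (h : ∀ a, IsIso (An.anBaseChange f (N a))) : IsIso (An.anBaseChange f (⨁ N)) :=
  isIso_app_biproduct (bc f) N h

end Groth.Agent.Gaga.H991.Comp
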