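import Groth.Agent.Gaga.H991.Comp
import Groth.Agent.CohqA.DevInd
import Groth.Agent.FormalA.ExPush
import Groth.Agent.PerfA.CohSerre

/-!
# The base change map for direct images from non-reduced closed subschemes
-/

set_option autoImplicit false
open CategoryTheory AlgebraicGeometry Topology TopologicalSpace Opposite CategoryTheory.Limits

noncomputable section

namespace Groth.Agent.Gaga.H991.Geo

open Groth.Agent.Gaga.H991.Comp Groth.Agent.Gaga.H991.BC

/-- The inputs: exactness of analytification (S4308) and the case of closed immersions of reduced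
schemes. -/
structure Inputs : Prop where
  exact : ∀ (X : Scheme.{0}) [X.Over An.SC] [LocallyOfFiniteType (X ↘ An.SC)] [IsReduced X],
    PreservesFiniteLimits (An.analytify X)
  closed : ∀ (Z X : Scheme.{0}) [Z.Over An.SC] [X.Over An.SC] [LocallyOfFiniteType (Z ↘ An.SC)]
    [LocallyOfFiniteType (X ↘ An.SC)] [IsReduced Z] [IsReduced X] (i : Z ⟶ X) [i.IsOver An.SC]
    [IsClosedImmersion i] (M : Z.Modules), IsIso (An.anBaseChange i M)

/-- The base change map at a zero module. -/
theorem isIso_of_isZero {X Y : Scheme.{0}} [X.Over An.SC] [Y.Over An.SC] (f : X ⟶ Y)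
    [f.IsOver An.SC] (M : X.Modules) (h : IsZero M) : IsIso (An.anBaseChange f M) := by
  have h1 : IsZero ((An.analytify Y).obj ((An.pushMod f).obj M)) :=
    (An.analytify Y).map_isZero ((An.pushMod f).map_isZero h)
  have h2 : IsZero ((An.anPushMap f).obj ((An.analytify X).obj M)) :=
    (An.anPushMap f).map_isZero ((An.analytify X).map_isZero h)
  exact ⟨0, h1.eq_of_src _ _, h2.eq_of_src _ _⟩

theorem epi_push_push {W V T : Scheme.{0}} (F : W ⟶ V) (k : T ⟶ W)
    (hk : IsClosedImmersion (k ≫ F)) {B Q : T.Modules} (p : B ⟶ Q) [Epi p] :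
    Epi ((An.pushMod F).map ((Scheme.Modules.pushforward k).map p)) := by
  have h1 : Epi ((Scheme.Modules.pushforward (k ≫ F)).map p) :=
    Groth.Agent.FormalA.ExPush.epi_pushforward (k ≫ F) (k ≫ F).isClosedEmbedding.isInducing
      Set.univ ((k ≫ F).isClosedEmbedding.isClosedMap _ isClosed_univ) _ (Set.subset_univ _)
  have h2 := (Scheme.Modules.pushforwardComp k F).hom.naturality p
  have h3 : Epi ((Scheme.Modules.pushforward k ⋙ Scheme.Modules.pushforward F).map
      p ≫ (Scheme.Modules.pushforwardComp k F).hom.app Q) := by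
    rw [h2]
    exact epi_comp _ _
  have h4 : (Scheme.Modules.pushforward k ⋙ Scheme.Modules.pushforward F).map p =
      ((Scheme.Modules.pushforward k ⋙ Scheme.Modules.pushforward F).map
      p ≫ (Scheme.Modules.pushforwardComp k F).hom.app Q) ≫
      (Scheme.Modules.pushforwardComp k F).inv.app Q := by
    rw [Category.assoc, Iso.hom_inv_id_app, Category.comp_id]
  change Epi ((Scheme.Modules.pushforward k ⋙ Scheme.Modules.pushforward F).map p)
  rw [h4]
  exact epi_comp _ _

/-- The case of (the direct image of) a module on an integral closed subscheme. -/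
theorem isIso_push_integral (H : Inputs) {W V Z : Scheme.{0}} [W.Over An.SC] [V.Over An.SC]
    [LocallyOfFiniteType (W ↘ An.SC)] [LocallyOfFiniteType (V ↘ An.SC)] [IsReduced W] [IsReduced V]
    (F : W ⟶ V) [F.IsOver An.SC] (k : Z ⟶ W) [IsClosedImmersion k] [IsReduced Z]
    (hk : IsClosedImmersion (k ≫ F)) (I : Z.Modules) :
    IsIso (An.anBaseChange F ((An.pushMod k).obj I)) := by
  let _ : Z.Over An.SC := ⟨k ≫ (W ↘ An.SC)⟩
  have hik : k.IsOver An.SC := ⟨rfl⟩
  have hZft : LocallyOfFiniteType (Z ↘ An.SC) := by
    change LocallyOfFiniteType (k ≫ (W ↘ An.SC))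
    infer_instance
  have h1 := H.closed Z W k I
  have h2 := H.closed Z V (k ≫ F) I
  exact (comp_iff k F I h1).mp h2

/-- Extensions, for direct images. -/
theorem isIso_push_extension (H : Inputs) {W V T : Scheme.{0}} [W.Over An.SC] [V.Over An.SC]
    [LocallyOfFiniteType (W ↘ An.SC)] [LocallyOfFiniteType (V ↘ An.SC)] [IsReduced W] [IsReduced V]
    (F : W ⟶ V) [F.IsOver An.SC] (k : T ⟶ W) [IsClosedImmersion k]
    (hk : IsClosedImmersion (k ≫ F)) {A B : T.Modules} (f : A ⟶ B) (hf : Mono f)
    (hA : IsIso (An.anBaseChange F ((Scheme.Modules.pushforward k).obj A)))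
    (hQ : IsIso (An.anBaseChange F ((Scheme.Modules.pushforward k).obj (cokernel f)))) :
    IsIso (An.anBaseChange F ((Scheme.Modules.pushforward k).obj B)) := by
  have hW := H.exact W
  have hV := H.exact V
  have hS : (ShortComplex.mk f (cokernel.π f) (cokernel.condition f)).Exact :=
    ShortComplex.exact_of_g_is_cokernel _ (cokernelIsCokernel f)
  have hlim : PreservesFiniteLimits (Scheme.Modules.pushforward k) :=
    pushMod_preservesFiniteLimits k
  have hw : (Scheme.Modules.pushforward k).map f ≫
      (Scheme.Modules.pushforward k).map (cokernel.π f) = 0 := by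
    rw [← Functor.map_comp, cokernel.condition, Functor.map_zero]
  have hS' : (ShortComplex.mk ((Scheme.Modules.pushforward k).map f)
      ((Scheme.Modules.pushforward k).map (cokernel.π f)) hw).Exact :=
    hS.map_of_mono_of_preservesKernel (Scheme.Modules.pushforward k) hf inferInstance
  have hmono : Mono ((Scheme.Modules.pushforward k).map f) := inferInstance
  have hepi := epi_push_push F k hk (cokernel.π f)
  exact @isIso_of_extension' W V _ _ F _ hV hW _ _ _ _ _ hw hS' hmono hepi hA hQ

/-- Direct images of coherent modules from a possibly non-reduced closed subscheme `T` of `W` which is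
also a closed subscheme of `V`. -/
theorem isIso_push (H : Inputs) {W V T : Scheme.{0}} [W.Over An.SC] [V.Over An.SC]
    [LocallyOfFiniteType (W ↘ An.SC)] [LocallyOfFiniteType (V ↘ An.SC)] [IsReduced W] [IsReduced V]
    (F : W ⟶ V) [F.IsOver An.SC] (k : T ⟶ W) [IsClosedImmersion k]
    (hk : IsClosedImmersion (k ≫ F)) [IsNoetherian T] (M : T.Modules) (hM : Coh.IsCoh M) :
    IsIso (An.anBaseChange F ((Scheme.Modules.pushforward k).obj M)) := by
  refine Groth.Agent.CohqA.DevInd.coh_induction
    (fun M => IsIso (An.anBaseChange F ((Scheme.Modules.pushforward k).obj M))) ?_ ?_ ?_ M hM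
  · rintro A B ⟨e⟩ h
    exact isIso_of_iso F ((Scheme.Modules.pushforward k).mapIso e) h
  · intro A hA
    exact isIso_of_isZero F _ ((Scheme.Modules.pushforward k).map_isZero hA)
  · intro A B f hf hA hB hQ hPA
    obtain ⟨Z, i, hi, hZ, I, ι, hι, hI, -, ⟨e⟩⟩ := hQ
    refine isIso_push_extension H F k hk f hf hPA ?_
    have hc : IsClosedImmersion ((i ≫ k) ≫ F) := by
      rw [Category.assoc]; infer_instance
    have h2 : IsIso (An.anBaseChange F ((Scheme.Modules.pushforward (i ≫ k)).obj I)) :=
      isIso_push_integral H F (i ≫ k) hc I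
    let e2 : (Scheme.Modules.pushforward (i ≫ k)).obj I ≅
        (Scheme.Modules.pushforward k).obj (cokernel f) :=
      ((Scheme.Modules.pushforwardComp i k).app I).symm ≪≫
        (Scheme.Modules.pushforward k).mapIso e.symm
    exact isIso_of_iso F e2 h2

end Groth.Agent.Gaga.H991.Geo
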