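import Groth.Agent.Gaga.H991.RestrPush
import Groth.Agent.Gaga.H974.AnStalk

/-!
# The base change map is local on the target
-/

set_option autoImplicit false
open CategoryTheory AlgebraicGeometry Topology TopologicalSpace Opposite CategoryTheory.Limits

noncomputable section

namespace Groth.Agent.Gaga.H991.Local

open Groth.Agent.Gaga.H277.AnUnit Groth.Agent.Gaga.H277.OpenHol Groth.Agent.Gaga.H277.AnRestr
  Groth.Agent.Gaga.H277.AnRestrUnit Groth.Agent.Gaga.H991.BC Groth.Agent.Gaga.H991.RestrPush
  Groth.Agent.Gaga.H974.AnStalk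

section

variable {X S X' T : Scheme.{0}} [X.Over An.SC] [S.Over An.SC] [X'.Over An.SC] [T.Over An.SC]
  {f : X ⟶ S} {j : T ⟶ S} {g : X' ⟶ X} {f' : X' ⟶ T} [f.IsOver An.SC] [j.IsOver An.SC]
  [g.IsOver An.SC] [f'.IsOver An.SC] [IsOpenImmersion j] [IsOpenImmersion g]
  (sq : IsPullback f' g j f)

include sq

/-- Restriction of the base change map to an open of the target. -/
theorem compat (M : X.Modules) :
    (restrIso j).hom.app ((An.pushMod f).obj M) ≫ (An.analytify T).map (e sq M).hom ≫
        An.anBaseChange f' ((Scheme.Modules.restrictFunctor g).obj M) =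
    (anRestrict j).map (An.anBaseChange f M) ≫ κ sq ((An.analytify X).obj M) ≫
        (An.anPushMap f').map ((restrIso g).hom.app M) :=
  anRestrict_hom_ext fun U s => (lhs_an sq M U s).trans (rhs_an sq M U s).symm

theorem isIso_restrict_iff (M : X.Modules) :
    IsIso ((anRestrict j).map (An.anBaseChange f M)) ↔
      IsIso (An.anBaseChange f' ((Scheme.Modules.restrictFunctor g).obj M)) := by
  have h := compat sq M
  have i1 : IsIso ((restrIso j).hom.app ((An.pushMod f).obj M)) := inferInstance
  have i2 : IsIso ((An.analytify T).map (e sq M).hom) := inferInstance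
  have i3 : IsIso (κ sq ((An.analytify X).obj M)) := inferInstance
  have i4 : IsIso ((An.anPushMap f').map ((restrIso g).hom.app M)) := inferInstance
  constructor
  · intro hi
    have h1 : IsIso ((restrIso j).hom.app ((An.pushMod f).obj M) ≫
        (An.analytify T).map (e sq M).hom ≫
        An.anBaseChange f' ((Scheme.Modules.restrictFunctor g).obj M)) := by
      rw [h]; infer_instance
    have h2 : IsIso ((An.analytify T).map (e sq M).hom ≫
        An.anBaseChange f' ((Scheme.Modules.restrictFunctor g).obj M)) :=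
      @IsIso.of_isIso_comp_left _ _ _ _ _ _ _ i1 h1
    exact @IsIso.of_isIso_comp_left _ _ _ _ _ _ _ i2 h2
  · intro hi
    have h1 : IsIso ((anRestrict j).map (An.anBaseChange f M) ≫ κ sq ((An.analytify X).obj M) ≫
        (An.anPushMap f').map ((restrIso g).hom.app M)) := by
      rw [← h]; infer_instance
    exact IsIso.of_isIso_comp_right _ (κ sq ((An.analytify X).obj M) ≫
        (An.anPushMap f').map ((restrIso g).hom.app M))

end

/-- Being an isomorphism is local for `hol`-modules. -/
theorem isIso_of_restrict {S : Scheme.{0}} [S.Over An.SC] {N N' : An.AnMod S} (φ : N ⟶ N')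
    (h : ∀ y : An.Pts S, ∃ (T : Scheme.{0}) (_ : T.Over An.SC) (j : T ⟶ S) (_ : j.IsOver An.SC)
      (_ : IsOpenImmersion j), y ∈ Set.range (An.Pts.map j) ∧ IsIso ((anRestrict j).map φ)) :
    IsIso φ := by
  rw [an_isIso_iff]
  intro y
  obtain ⟨T, _, j, _, _, ⟨t, rfl⟩, hi⟩ := h y
  have hb : ∀ W : Opens (An.top T), Function.Bijective (app φ ((imF j).obj W)) := fun W =>
    bijective_app ((anRestrict j).map φ) W
  have hle : ∀ W : Opens (An.top S), (imF j).obj ((An.mapF j).obj W) ≤ W := fun W =>
    (imPre j W).le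
  have hmem : ∀ W : Opens (An.top S), An.Pts.map j t ∈ W →
      An.Pts.map j t ∈ (imF j).obj ((An.mapF j).obj W) := fun W hW =>
    map_mem_imF (V := (An.mapF j).obj W) j hW
  constructor
  · rw [injective_iff_map_eq_zero]
    intro a ha
    obtain ⟨U, hU, s, rfl⟩ := TopCat.Presheaf.exists_germ_eq (pre N) a
    have h1 : (anPsh N').germ U (An.Pts.map j t) hU (app φ U s) =
        (anPsh N').germ U (An.Pts.map j t) hU 0 := by
      rw [map_zero]
      exact (anStkMap_germ φ _ U hU s).symm.trans ha
    obtain ⟨W, hW, iU, iV, h2⟩ := TopCat.Presheaf.germ_eq (pre N') _ hU hU _ _ h1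
    have h3 : app φ ((imF j).obj ((An.mapF j).obj W))
        ((pre N).map (homOfLE ((hle W).trans iU.le)).op s) = app φ _ 0 := by
      rw [app_res, map_zero]
      have h4 := congrArg (fun z => (pre N').map (homOfLE (hle W)).op z) h2
      dsimp only at h4
      rw [map_zero, map_zero, ← ConcreteCategory.comp_apply, ← Functor.map_comp] at h4
      exact h4
    have h4 := (hb _).1 h3
    have h5 := TopCat.Presheaf.germ_res_apply (pre N) (homOfLE ((hle W).trans iU.le))
      (An.Pts.map j t) (hmem W hW) s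
    rw [h4, map_zero] at h5
    exact h5.symm
  · intro b
    obtain ⟨U, hU, s, rfl⟩ := TopCat.Presheaf.exists_germ_eq (pre N') b
    obtain ⟨s', hs'⟩ := (hb ((An.mapF j).obj U)).2 ((pre N').map (homOfLE (hle U)).op s)
    refine ⟨(pre N).germ _ (An.Pts.map j t) (hmem U hU) s', ?_⟩
    refine (anStkMap_germ φ _ _ (hmem U hU) s').trans ?_
    refine (congrArg ((pre N').germ _ _ (hmem U hU)) hs').trans ?_
    exact TopCat.Presheaf.germ_res_apply (pre N') (homOfLE (hle U)) (An.Pts.map j t) (hmem U hU) s

/-- **The base change map is local on the target** (cartesian squares of open immersions). -/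
theorem isIso_of_local {X S : Scheme.{0}} [X.Over An.SC] [S.Over An.SC] (f : X ⟶ S)
    [f.IsOver An.SC] (M : X.Modules)
    (h : ∀ y : An.Pts S, ∃ (T X' : Scheme.{0}) (_ : T.Over An.SC) (_ : X'.Over An.SC) (j : T ⟶ S)
      (g : X' ⟶ X) (f' : X' ⟶ T) (_ : j.IsOver An.SC) (_ : g.IsOver An.SC) (_ : f'.IsOver An.SC)
      (_ : IsOpenImmersion j) (_ : IsOpenImmersion g) (_ : IsPullback f' g j f),
      y ∈ Set.range (An.Pts.map j) ∧
        IsIso (An.anBaseChange f' ((Scheme.Modules.restrictFunctor g).obj M))) :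
    IsIso (An.anBaseChange f M) := by
  refine isIso_of_restrict _ fun y => ?_
  obtain ⟨T, X', _, _, j, g, f', _, _, _, _, _, sq, hy, hi⟩ := h y
  exact ⟨T, inferInstance, j, inferInstance, inferInstance, hy, (isIso_restrict_iff sq M).mpr hi⟩

/-- Conversely, the base change map of the restriction to an open of the target is an isomorphism
if the base change map is. -/
theorem isIso_restrict {X S X' T : Scheme.{0}} [X.Over An.SC] [S.Over An.SC] [X'.Over An.SC]
    [T.Over An.SC] {f : X ⟶ S} {j : T ⟶ S} {g : X' ⟶ X} {f' : X' ⟶ T} [f.IsOver An.SC]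
    [j.IsOver An.SC] [g.IsOver An.SC] [f'.IsOver An.SC] [IsOpenImmersion j] [IsOpenImmersion g]
    (sq : IsPullback f' g j f) (M : X.Modules) (h : IsIso (An.anBaseChange f M)) :
    IsIso (An.anBaseChange f' ((Scheme.Modules.restrictFunctor g).obj M)) :=
  (isIso_restrict_iff sq M).mp inferInstance

lemma range_ι {S : Scheme.{0}} [S.Over An.SC] (V : S.Opens) (y : An.Pts S) (hy : y.pt ∈ V) :
    y ∈ Set.range (An.Pts.map V.ι) := by
  have h : Set.range y.1 ⊆ Set.range V.ι := by
    rintro _ ⟨p, rfl⟩
    rw [An.eq_cpt p, Scheme.Opens.range_ι]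
    exact hy
  refine ⟨⟨IsOpenImmersion.lift V.ι y.1 h, ?_⟩, Subtype.ext (IsOpenImmersion.lift_fac _ _ _)⟩
  rw [← Scheme.Opens.ι_comp_over, ← Category.assoc, IsOpenImmersion.lift_fac]
  exact y.2

instance morphismRestrict_isOver {X S : Scheme.{0}} [X.Over An.SC] [S.Over An.SC] (f : X ⟶ S)
    [f.IsOver An.SC] (V : S.Opens) : (f ∣_ V).IsOver An.SC where
  comp_over := by
    rw [← Scheme.Opens.ι_comp_over, ← Scheme.Opens.ι_comp_over, ← Category.assoc,
      morphismRestrict_ι, Category.assoc, comp_over f]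

/-- **The base change map is local on the target** (opens of the target). -/
theorem isIso_of_opens {X S : Scheme.{0}} [X.Over An.SC] [S.Over An.SC] (f : X ⟶ S)
    [f.IsOver An.SC] (M : X.Modules)
    (h : ∀ y : An.Pts S, ∃ V : S.Opens, y.pt ∈ V ∧
      IsIso (An.anBaseChange (f ∣_ V) (M.restrict (f ⁻¹ᵁ V).ι))) :
    IsIso (An.anBaseChange f M) := by
  refine isIso_of_local f M fun y => ?_
  obtain ⟨V, hy, hi⟩ := h y
  exact ⟨V, (f ⁻¹ᵁ V : X.Opens), inferInstance, inferInstance, V.ι, (f ⁻¹ᵁ V).ι, f ∣_ V,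
    inferInstance, inferInstance, inferInstance, inferInstance, inferInstance,
    isPullback_morphismRestrict f V, range_ι V y hy, hi⟩

end Groth.Agent.Gaga.H991.Local
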